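import Cfsg.Agent.H193.K6.TwoM
import Cfsg.Agent.H228.K6.Crit
import Cfsg.Agent.H436.Names

/-!
# S4876: `E₆(q)`, `²E₆(q)`, `p = 5`, `5 ∣ q² + 1` (helper193)

`w` of type `D₄(a₁)`.  `|P| = 25` : the inertial criterion with a reflection of order 4 of `G₈ = C_W(w)`; `5 ^ 4 ∣ |P|` :
`KRow.of_rank_two` by the machine over `ZMod (5 ^ a)`.
-/

set_option autoImplicit false
set_option linter.unusedSectionVars false
set_option maxRecDepth 100000
set_option maxHeartbeats 8000000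

namespace Cfsg.Agent.H193.K6.E6Five

open Cfsg Cfsg.Lie Cfsg.Lie.ChevalleyDatum
open Cfsg.Agent.ChevalleyStructure.CoxeterGeomTypes Cfsg.Agent.Nodes.RGDChev Cfsg.Agent.H129.WData
  Cfsg.Agent.H129.TorusChar Cfsg.Agent.BpExc.RowsUntw Cfsg.Agent.H720.TwFr Cfsg.Agent.H210.EL Cfsg.Agent.H61.K6
  Cfsg.Agent.H404.K6 Cfsg.Agent.H228.K6 Cfsg.Agent.H193.K6.TwoM Cfsg.Agent.H436 Cfsg.Agent.OrdDiv

universe u v

local instance inst5 : Fact (Nat.Prime 5) := ⟨by norm_num⟩

/-! ### arithmetic -/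

/-- `c = Th v + s v` is an eigenvector if `Th² v = - v` and `s² = -1` -/
theorem ev_of {l m : ℕ} {Th : Mat l} {v u : Fin l → ℤ} (h1 : ∀ j, ∑ n, Th j n * v n = u j)
    (h2 : ∀ j, ∑ n, Th j n * u n = - v j) {s : ZMod m} (hs : s ^ 2 = -1) :
    EV Th s (fun j => (u j : ZMod m) + s * (v j : ZMod m)) := by
  funext j
  show ∑ n, (Th j n : ZMod m) * ((u n : ZMod m) + s * (v n : ZMod m)) = s * ((u j : ZMod m) + s * (v j : ZMod m))
  have e1 : ((∑ n, Th j n * v n : ℤ) : ZMod m) = (u j : ZMod m) := by rw [h1]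
  have e2 : ((∑ n, Th j n * u n : ℤ) : ZMod m) = -(v j : ZMod m) := by rw [h2, Int.cast_neg]
  rw [Int.cast_sum] at e1 e2
  have e3 : ∑ n, (Th j n : ZMod m) * ((u n : ZMod m) + s * (v n : ZMod m)) =
      (∑ n, ((Th j n * u n : ℤ) : ZMod m)) + s * ∑ n, ((Th j n * v n : ℤ) : ZMod m) := by
    rw [Finset.mul_sum, ← Finset.sum_add_distrib]
    exact Finset.sum_congr rfl fun n _ => by push_cast; ring
  rw [e3, e1, e2]
  linear_combination -(v j : ZMod m) * hs

theorem mod_cases {q : ℕ} (hq : ¬ 5 ∣ q) (hd : ¬ 5 ∣ q ^ 2 - 1) : q % 5 = 2 ∨ q % 5 = 3 := by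
  have h1 : q % 5 < 5 := Nat.mod_lt _ (by norm_num)
  have h0 : q % 5 ≠ 0 := fun h => hq (Nat.dvd_of_mod_eq_zero h)
  have hpos : 1 ≤ q ^ 2 := Nat.one_le_pow _ _ (by
    rcases Nat.eq_zero_or_pos q with rfl | h
    · exact absurd (dvd_zero 5) hq
    · exact h)
  have h2 : q ^ 2 % 5 ≠ 1 := fun h => hd ((Nat.modEq_iff_dvd' hpos).1 (by
    show 1 % 5 = q ^ 2 % 5
    rw [h]))
  rw [Nat.pow_mod] at h2
  interval_cases h : q % 5
  · exact absurd rfl h0
  · exact absurd rfl h2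
  · exact Or.inl rfl
  · exact Or.inr rfl
  · exact absurd rfl h2

theorem cast_cases {q : ℕ} (h : q % 5 = 2 ∨ q % 5 = 3) : (q : ZMod 5) = 2 ∨ (q : ZMod 5) = 3 := by
  rcases h with h | h
  · left
    have := (ZMod.natCast_eq_natCast_iff q 2 5).2 h
    exact_mod_cast this
  · right
    have := (ZMod.natCast_eq_natCast_iff q 3 5).2 h
    exact_mod_cast this

/-- the exact power of 5 in `q² + 1` -/
theorem exists_a {q : ℕ} (h : q % 5 = 2 ∨ q % 5 = 3) : ∃ a b : ℕ, 1 ≤ a ∧ q ^ 2 + 1 = 5 ^ a * b ∧ ¬ 5 ∣ b := by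
  obtain ⟨a, b, hb, hab⟩ := Nat.exists_eq_pow_mul_and_not_dvd (n := q ^ 2 + 1) (Nat.succ_ne_zero _) 5 (by norm_num)
  refine ⟨a, b, ?_, hab, hb⟩
  by_contra hcon
  have h0 : a = 0 := by omega
  rw [h0, pow_zero, one_mul] at hab
  apply hb
  rw [← hab]
  apply Nat.dvd_of_mod_eq_zero
  rw [Nat.add_mod, Nat.pow_mod]
  rcases h with h | h <;> rw [h]

/-- not divisible by `5 ^ (2 a + 1)` -/
theorem ndvd_of {N d C q a b : ℕ} (hN : d * N = C * (q ^ 2 + 1) ^ 2) (hC : ¬ 5 ∣ C) (hab : q ^ 2 + 1 = 5 ^ a * b)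
    (hb : ¬ 5 ∣ b) : ¬ 5 ^ (2 * a + 1) ∣ N := by
  intro h
  have h1 : 5 ^ (2 * a + 1) ∣ C * (q ^ 2 + 1) ^ 2 := by
    rw [← hN]
    exact h.mul_left d
  rw [hab, mul_pow, ← pow_mul, mul_comm a 2] at h1
  have h2 : 5 ^ (2 * a) * 5 ∣ 5 ^ (2 * a) * (C * b ^ 2) := by
    rw [← pow_succ]
    refine h1.trans (dvd_of_eq ?_)
    ring
  have h3 := Nat.dvd_of_mul_dvd_mul_left (pow_pos (by norm_num) _) h2
  have hp : Nat.Prime 5 := by norm_num
  rcases hp.dvd_mul.1 h3 with h4 | h4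
  · exact hC h4
  · exact hb (hp.dvd_of_dvd_pow h4)

theorem nd_sub {x : ℕ} (h0 : 1 ≤ x) (h : x % 5 ≠ 1) : ¬ 5 ∣ x - 1 := by
  rintro ⟨t, ht⟩
  omega

theorem nd_of {x : ℕ} (h : x % 5 ≠ 0) : ¬ 5 ∣ x := fun h1 => h (Nat.mod_eq_zero_of_dvd h1)

theorem nd_mul {x y : ℕ} (hx : ¬ 5 ∣ x) (hy : ¬ 5 ∣ y) : ¬ 5 ∣ x * y := fun h => by
  rcases (show Nat.Prime 5 by norm_num).dvd_mul.1 h with h | h
  · exact hx h
  · exact hy h

theorem nd_pow {x : ℕ} (hx : ¬ 5 ∣ x) (n : ℕ) : ¬ 5 ∣ x ^ n := fun h =>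
  hx ((show Nat.Prime 5 by norm_num).dvd_of_dvd_pow h)

section

variable {q : ℕ} (h : q % 5 = 2 ∨ q % 5 = 3)

include h

theorem q_pos : 1 ≤ q := by
  rcases Nat.eq_zero_or_pos q with rfl | h1
  · rcases h with h | h <;> simp at h
  · exact h1

theorem nd_q : ¬ 5 ∣ q := nd_of (by rcases h with h | h <;> rw [h] <;> norm_num)

theorem nd_pow_sub (k : ℕ) (hk : 2 ^ k % 5 ≠ 1) (hk' : 3 ^ k % 5 ≠ 1) : ¬ 5 ∣ q ^ k - 1 := by
  refine nd_sub (Nat.one_le_pow _ _ (q_pos h)) ?_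
  rw [Nat.pow_mod]
  rcases h with h | h <;> rw [h]
  · exact hk
  · exact hk'

theorem nd_pow_add (k : ℕ) (hk : (2 ^ k % 5 + 1) % 5 ≠ 0) (hk' : (3 ^ k % 5 + 1) % 5 ≠ 0) : ¬ 5 ∣ q ^ k + 1 := by
  refine nd_of ?_
  rw [Nat.add_mod, Nat.pow_mod]
  rcases h with h | h <;> rw [h]
  · exact hk
  · exact hk'

theorem nd_84 : ¬ 5 ∣ q ^ 8 + q ^ 4 + 1 := by
  refine nd_of ?_
  rw [Nat.add_mod, Nat.add_mod (q ^ 8), Nat.pow_mod, Nat.pow_mod (q) 4]
  rcases h with h | h <;> rw [h] <;> norm_num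

theorem eight : q ^ 8 - 1 = (q ^ 2 - 1) * (q ^ 4 + 1) * (q ^ 2 + 1) := by
  obtain ⟨x, hx⟩ : ∃ x, q ^ 2 = x + 1 := ⟨q ^ 2 - 1, (Nat.sub_add_cancel (Nat.one_le_pow _ _ (q_pos h))).symm⟩
  have h4 : q ^ 4 = (x + 1) ^ 2 := by rw [← hx, ← pow_mul]
  have h8 : q ^ 8 = (x + 1) ^ 4 := by rw [← hx, ← pow_mul]
  rw [h8, h4, hx, Nat.add_sub_cancel]
  apply Nat.sub_eq_of_eq_add
  ring

theorem twelve : q ^ 12 - 1 = (q ^ 2 - 1) * (q ^ 8 + q ^ 4 + 1) * (q ^ 2 + 1) := by
  obtain ⟨x, hx⟩ : ∃ x, q ^ 2 = x + 1 := ⟨q ^ 2 - 1, (Nat.sub_add_cancel (Nat.one_le_pow _ _ (q_pos h))).symm⟩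
  have h4 : q ^ 4 = (x + 1) ^ 2 := by rw [← hx, ← pow_mul]
  have h8 : q ^ 8 = (x + 1) ^ 4 := by rw [← hx, ← pow_mul]
  have h12 : q ^ 12 = (x + 1) ^ 6 := by rw [← hx, ← pow_mul]
  rw [h12, h8, h4, hx, Nat.add_sub_cancel]
  apply Nat.sub_eq_of_eq_add
  ring

/-- `E₆(q)` -/
theorem val_e6 {N a b : ℕ} (hN : fE6.den 0 q * N = fE6.num 0 q) (hab : q ^ 2 + 1 = 5 ^ a * b) (hb : ¬ 5 ∣ b) :
    ¬ 5 ^ (2 * a + 1) ∣ N := by
  refine ndvd_of (C := q ^ 36 * ((q ^ 2 - 1) * (q ^ 5 - 1) * (q ^ 6 - 1) * ((q ^ 2 - 1) * (q ^ 4 + 1)) * (q ^ 9 - 1) *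
    ((q ^ 2 - 1) * (q ^ 8 + q ^ 4 + 1)))) (hN.trans ?_) ?_ hab hb
  · show q ^ 36 * ((q ^ 2 - 1) * (q ^ 5 - 1) * (q ^ 6 - 1) * (q ^ 8 - 1) * (q ^ 9 - 1) * (q ^ 12 - 1)) = _
    rw [eight h, twelve h]
    ring
  · exact nd_mul (nd_pow (nd_q h) _) (nd_mul (nd_mul (nd_mul (nd_mul (nd_mul
      (nd_pow_sub h 2 (by norm_num) (by norm_num)) (nd_pow_sub h 5 (by norm_num) (by norm_num)))
      (nd_pow_sub h 6 (by norm_num) (by norm_num))) (nd_mul (nd_pow_sub h 2 (by norm_num) (by norm_num))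
      (nd_pow_add h 4 (by norm_num) (by norm_num)))) (nd_pow_sub h 9 (by norm_num) (by norm_num)))
      (nd_mul (nd_pow_sub h 2 (by norm_num) (by norm_num)) (nd_84 h)))

/-- `²E₆(q)` -/
theorem val_te6 {N a b : ℕ} (hN : fTE6.den 0 q * N = fTE6.num 0 q) (hab : q ^ 2 + 1 = 5 ^ a * b) (hb : ¬ 5 ∣ b) :
    ¬ 5 ^ (2 * a + 1) ∣ N := by
  refine ndvd_of (C := q ^ 36 * ((q ^ 2 - 1) * (q ^ 5 + 1) * (q ^ 6 - 1) * ((q ^ 2 - 1) * (q ^ 4 + 1)) * (q ^ 9 + 1) *
    ((q ^ 2 - 1) * (q ^ 8 + q ^ 4 + 1)))) (hN.trans ?_) ?_ hab hb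
  · show q ^ 36 * ((q ^ 2 - 1) * (q ^ 5 + 1) * (q ^ 6 - 1) * (q ^ 8 - 1) * (q ^ 9 + 1) * (q ^ 12 - 1)) = _
    rw [eight h, twelve h]
    ring
  · exact nd_mul (nd_pow (nd_q h) _) (nd_mul (nd_mul (nd_mul (nd_mul (nd_mul
      (nd_pow_sub h 2 (by norm_num) (by norm_num)) (nd_pow_add h 5 (by norm_num) (by norm_num)))
      (nd_pow_sub h 6 (by norm_num) (by norm_num))) (nd_mul (nd_pow_sub h 2 (by norm_num) (by norm_num))
      (nd_pow_add h 4 (by norm_num) (by norm_num)))) (nd_pow_add h 9 (by norm_num) (by norm_num)))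
      (nd_mul (nd_pow_sub h 2 (by norm_num) (by norm_num)) (nd_84 h)))

/-- `E₇(q)` -/
theorem val_e7 {N a b : ℕ} (hN : fE7.den 0 q * N = fE7.num 0 q) (hab : q ^ 2 + 1 = 5 ^ a * b) (hb : ¬ 5 ∣ b) :
    ¬ 5 ^ (2 * a + 1) ∣ N := by
  refine ndvd_of (C := q ^ 63 * ((q ^ 2 - 1) * (q ^ 6 - 1) * ((q ^ 2 - 1) * (q ^ 4 + 1)) * (q ^ 10 - 1) *
    ((q ^ 2 - 1) * (q ^ 8 + q ^ 4 + 1)) * (q ^ 14 - 1) * (q ^ 18 - 1))) (hN.trans ?_) ?_ hab hb
  · show q ^ 63 * ((q ^ 2 - 1) * (q ^ 6 - 1) * (q ^ 8 - 1) * (q ^ 10 - 1) * (q ^ 12 - 1) * (q ^ 14 - 1) *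
      (q ^ 18 - 1)) = _
    rw [eight h, twelve h]
    ring
  · exact nd_mul (nd_pow (nd_q h) _) (nd_mul (nd_mul (nd_mul (nd_mul (nd_mul (nd_mul
      (nd_pow_sub h 2 (by norm_num) (by norm_num)) (nd_pow_sub h 6 (by norm_num) (by norm_num)))
      (nd_mul (nd_pow_sub h 2 (by norm_num) (by norm_num)) (nd_pow_add h 4 (by norm_num) (by norm_num))))
      (nd_pow_sub h 10 (by norm_num) (by norm_num)))
      (nd_mul (nd_pow_sub h 2 (by norm_num) (by norm_num)) (nd_84 h)))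
      (nd_pow_sub h 14 (by norm_num) (by norm_num))) (nd_pow_sub h 18 (by norm_num) (by norm_num)))

end

theorem sq_eq {q a b : ℕ} (hab : q ^ 2 + 1 = 5 ^ a * b) : (q : ZMod (5 ^ a)) ^ 2 = -1 := by
  have h1 : ((q ^ 2 + 1 : ℕ) : ZMod (5 ^ a)) = 0 := by
    rw [ZMod.natCast_eq_zero_iff, hab]
    exact dvd_mul_right _ _
  push_cast at h1
  exact eq_neg_of_add_eq_zero_left h1

/-! ### the Weyl group data -/

/-- the Cartan matrix -/
def Am : Mat 6 := ![![2, 0, -1, 0, 0, 0], ![0, 2, 0, -1, 0, 0], ![-1, 0, 2, -1, 0, 0], ![0, -1, -1, 2, -1, 0], ![0, 0, 0, -1, 2, -1], ![0, 0, 0, 0, -1, 2]]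

/-- `w`, of order 4, type `D₄(a₁)` -/
def cw : List (Fin 6 × Mat 6) := [
    (3, dm 840399271827990881349491157079192799276791864646780465),
    (4, dm 840352503775639848599074519287906969101741913926059569),
    (1, dm 838855926100406800584444035752126696595262666594371121),
    (3, dm 838855926100406758049148210248900057699093647454684689),
    (2, dm 838855926100363201906182330125614524681240522657383953),
    (1, dm 838855926100363201906181062475016657635080460776784401)]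

/-- `- w` -/
def Tm : Mat 6 := fun i j => - hd cw i j

/-- `- w` times the graph automorphism -/
def cm : List (Fin 6 × Mat 6) := [
    (0, dm 789373818066165478457197628170381865490626603583521296),
    (2, dm 789373819493413172492385503775643668558548525347488272),
    (3, dm 789373819493414533621853187529497522056978252420333072),
    (4, dm 789420587545809122515235705444106664181779469472087568),
    (5, dm 790917165222435967104774352926232919080299239396851216),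
    (1, dm 790917165267037457501835599170618729397927828851768848),
    (3, dm 790917210938963624092551753421688531543091578106527216),
    (4, dm 790963978991358212985934271336373231531548340737490416),
    (2, dm 790963978992752009559544361069294432836070868424015344),
    (3, dm 790966901996025310235913084685106011903680453216255472),
    (0, dm 791013670048419899129255037780545629619496732927180272),
    (2, dm 791013671475667590505986924291855765450565083928706543),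
    (1, dm 791013671475667590505986924291855765450566183440334319),
    (3, dm 791013717147593757096703118157006787834410513328487951),
    (4, dm 791013717147593757096743682976214091175223223458971151),
    (5, dm 792510294822826805111374166511994363682828370697502223),
    (0, dm 840400780430284341538011264866055715353285378844376591),
    (2, dm 840400779003036650161279378354745579522217028916592144),
    (1, dm 840399317501400680387828858423766716737626000545268240),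
    (3, dm 840399271829474513797112704172696951485950433069351408),
    (4, dm 840352503777079924903770751077219554838306380568871408),
    (2, dm 838855926100453080315530177809727006845793334819570160),
    (3, dm 838855926100451719186063761706472200985145486550254064),
    (0, dm 838855926100408163043097881583186667967292361752953328),
    (2, dm 838855926100408161713869888274150872481324345590268400),
    (1, dm 838855926100406800584403472170898427803915733120302576),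
    (3, dm 838855926100406758049107607053590494882089838509014544),
    (0, dm 838855926100363201906182291749474486273151282308464144),
    (2, dm 838855926100363201906182290511534449293614016623033871),
    (0, dm 838855926100363201906181022860935401655833237331132943)]

/-- a complex reflection of order 4 commuting with `w` -/
def cr : List (Fin 6 × Mat 6) := [
    (0, dm 840400734756875904958367974172998138539975285996468719),
    (2, dm 840400733329628212252408093114712170243401654220569071),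
    (3, dm 840399271827990881349491157080478501598162777579929071),
    (4, dm 840352503775639848599074519289154892491249869697564143),
    (1, dm 838855926100406800584444035752165694165155993193266671),
    (3, dm 838855926100406758049148210248939018375498826634477071),
    (2, dm 838855926100363201906182330125615706425782744675532303),
    (1, dm 838855926100363201906181062475016658788001965383631375),
    (0, dm 838855926100363201906181022860935401655833237331132943)]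

def v1 : Fin 6 → ℤ := ![-1, -1, 1, 0, 1, -1]
def v2 : Fin 6 → ℤ := ![0, -1, -1, 1, 1, -1]
def u1 : Fin 6 → ℤ := ![0, -1, -1, 2, -1, 0]
def u2 : Fin 6 → ℤ := ![1, -1, -1, 1, -1, 1]
def u1' : Fin 6 → ℤ := ![0, 1, 1, -2, 1, 0]
def u2' : Fin 6 → ℤ := ![-1, 1, 1, -1, 1, -1]

theorem hA : ∀ i j, Am i j = cartanOf chevE6 6 i j := by decide +kernel
theorem cw_ok : ChainOK Am cw := by decide +kernel
theorem cm_ok : ChainOK Am cm := by decide +kernel
theorem tm_ok : ∀ j, Tm j = hd cm (rho6 j) := by decide +kernel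
theorem cr_ok : ChainOK Am cr := by decide +kernel
theorem cr_w : CommOK (hd cr) (hd cw) := by decide +kernel
theorem cr_m : CommOK (hd cr) Tm := by decide +kernel

theorem w1 : ∀ j, ∑ n, hd cw j n * v1 n = u1 j := by decide +kernel
theorem w1' : ∀ j, ∑ n, hd cw j n * u1 n = - v1 j := by decide +kernel
theorem w2 : ∀ j, ∑ n, hd cw j n * v2 n = u2 j := by decide +kernel
theorem w2' : ∀ j, ∑ n, hd cw j n * u2 n = - v2 j := by decide +kernel
theorem m1 : ∀ j, ∑ n, Tm j n * v1 n = u1' j := by decide +kernel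
theorem m1' : ∀ j, ∑ n, Tm j n * u1' n = - v1 j := by decide +kernel
theorem m2 : ∀ j, ∑ n, Tm j n * v2 n = u2' j := by decide +kernel
theorem m2' : ∀ j, ∑ n, Tm j n * u2' n = - v2 j := by decide +kernel

theorem unit_w {m : ℕ} {s : ZMod m} (hs : s ^ 2 = -1) : IsUnit
    ((fun j => (u1 j : ZMod m) + s * (v1 j : ZMod m)) 0 * (fun j => (u2 j : ZMod m) + s * (v2 j : ZMod m)) 5 -
      (fun j => (u1 j : ZMod m) + s * (v1 j : ZMod m)) 5 * (fun j => (u2 j : ZMod m) + s * (v2 j : ZMod m)) 0) := by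
  have h1 : ((fun j => (u1 j : ZMod m) + s * (v1 j : ZMod m)) 0 * (fun j => (u2 j : ZMod m) + s * (v2 j : ZMod m)) 5 -
      (fun j => (u1 j : ZMod m) + s * (v1 j : ZMod m)) 5 * (fun j => (u2 j : ZMod m) + s * (v2 j : ZMod m)) 0) = -1 := by
    have a1 : u1 0 = 0 := rfl
    have a2 : v1 0 = -1 := rfl
    have a3 : u2 5 = 1 := rfl
    have a4 : v2 5 = -1 := rfl
    have a5 : u1 5 = 0 := rfl
    have a6 : v1 5 = -1 := rfl
    have a7 : u2 0 = 1 := rfl
    have a8 : v2 0 = 0 := rfl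
    simp only [a1, a2, a3, a4, a5, a6, a7, a8]
    push_cast
    linear_combination hs
  rw [h1]
  exact isUnit_one.neg

theorem unit_m {m : ℕ} {s : ZMod m} (hs : s ^ 2 = -1) : IsUnit
    ((fun j => (u1' j : ZMod m) + s * (v1 j : ZMod m)) 0 * (fun j => (u2' j : ZMod m) + s * (v2 j : ZMod m)) 5 -
      (fun j => (u1' j : ZMod m) + s * (v1 j : ZMod m)) 5 * (fun j => (u2' j : ZMod m) + s * (v2 j : ZMod m)) 0) := by
  have h1 : ((fun j => (u1' j : ZMod m) + s * (v1 j : ZMod m)) 0 * (fun j => (u2' j : ZMod m) + s * (v2 j : ZMod m)) 5 -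
      (fun j => (u1' j : ZMod m) + s * (v1 j : ZMod m)) 5 * (fun j => (u2' j : ZMod m) + s * (v2 j : ZMod m)) 0) = -1 := by
    have a1 : u1' 0 = 0 := rfl
    have a2 : v1 0 = -1 := rfl
    have a3 : u2' 5 = -1 := rfl
    have a4 : v2 5 = -1 := rfl
    have a5 : u1' 5 = 0 := rfl
    have a6 : v1 5 = -1 := rfl
    have a7 : u2' 0 = -1 := rfl
    have a8 : v2 0 = 0 := rfl
    simp only [a1, a2, a3, a4, a5, a6, a7, a8]
    push_cast
    linear_combination hs
  rw [h1]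
  exact isUnit_one.neg

/-! ### the rows -/

theorem ord_two : ∀ i, 0 < i → i < 4 → (((2 : ℕ) : ZMod 5) ^ 3) ^ i ≠ 1 := by
  intro i h1 h2
  interval_cases i <;> decide +kernel

theorem ord_three : ∀ i, 0 < i → i < 4 → (((3 : ℕ) : ZMod 5) ^ 3) ^ i ≠ 1 := by
  intro i h1 h2
  interval_cases i <;> decide +kernel

theorem krow_e6 {F : Type} [Field F] [Fintype F] (hF : ((5 : ℕ) : F) ≠ 0) {q : ℕ} (hq : Fintype.card F = q)
    (hm : q % 5 = 2 ∨ q % 5 = 3) (hcard : fE6.den 0 q * Nat.card ↥(chevE6.group F) = fE6.num 0 q) :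
    KRow.{u, 0} 5 ↥(chevE6.group F) := by
  obtain ⟨a, b, ha, hab, hb⟩ := exists_a hm
  have hG := val_e6 hm hcard hab hb
  rcases Nat.lt_or_ge a 2 with h2 | h2
  · have ha1 : a = 1 := by omega
    subst ha1
    obtain ⟨Γ, _, f, X, h⟩ := exists_out_untw e6T (p := 5) hF hq invC_E6 three_ne_zero (Or.inr Nat.prime_three)
      (by norm_num) hA cw_ok
    rcases cast_cases hm with hs | hs
    · rw [hs] at h
      obtain ⟨x, y, z, H⟩ := h.inert cr_ok cr_w (a := ![0, 1, 0, 3, 3, 1]) (b := ![1, 0, 2, 2, 0, 2]) (by decide +kernel)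
        (by decide +kernel) (by decide +kernel) (by decide +kernel) (t := 2) (n := 3) (by decide +kernel)
        (by decide +kernel) (by decide +kernel) (m := 4) (by norm_num) ord_three hG
      exact KRow.of_inertial H (Or.inl ⟨rfl, le_rfl⟩)
    · rw [hs] at h
      obtain ⟨x, y, z, H⟩ := h.inert cr_ok cr_w (a := ![0, 1, 0, 1, 2, 4]) (b := ![1, 0, 1, 3, 0, 4]) (by decide +kernel)
        (by decide +kernel) (by decide +kernel) (by decide +kernel) (t := 3) (n := 2) (by decide +kernel)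
        (by decide +kernel) (by decide +kernel) (m := 4) (by norm_num) ord_two hG
      exact KRow.of_inertial H (Or.inl ⟨rfl, le_rfl⟩)
  · have hs := sq_eq hab
    obtain ⟨φ, hφ⟩ := hom_untw e6T (p := 5) hF hq invC_E6 three_ne_zero (Or.inr Nat.prime_three) (by norm_num) hA cw_ok
      (ev_of w1 w1' hs) (ev_of w2 w2' hs) (unit_w hs)
    exact krow_of_two (Or.inl rfl) h2 φ hφ hG

theorem krow_te6 {K : Type} [Field K] [Fintype K] (hF : ((5 : ℕ) : K) ≠ 0) {q : ℕ} (hq : IsPrimePow q)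
    (hK : Fintype.card K = q ^ 2) (hm : q % 5 = 2 ∨ q % 5 = 3)
    (hcard : fTE6.den 0 q * Nat.card ↥(twistedE6 K q) = fTE6.num 0 q) :
    KRow.{u, 0} 5 ↥(twistedE6 K q) := by
  obtain ⟨a, b, ha, hab, hb⟩ := exists_a hm
  have hG := val_te6 hm hcard hab hb
  rcases Nat.lt_or_ge a 2 with h2 | h2
  · have ha1 : a = 1 := by omega
    subst ha1
    obtain ⟨Γ, _, f, X, h⟩ := exists_out_six (p := 5) hF hq hK (by norm_num) hA cm_ok tm_ok
    rcases cast_cases hm with hs | hs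
    · rw [hs] at h
      obtain ⟨x, y, z, H⟩ := h.inert cr_ok cr_m (a := ![0, 1, 0, 1, 2, 4]) (b := ![1, 0, 1, 3, 0, 4]) (by decide +kernel)
        (by decide +kernel) (by decide +kernel) (by decide +kernel) (t := 3) (n := 2) (by decide +kernel)
        (by decide +kernel) (by decide +kernel) (m := 4) (by norm_num) ord_two hG
      exact KRow.of_inertial H (Or.inl ⟨rfl, le_rfl⟩)
    · rw [hs] at h
      obtain ⟨x, y, z, H⟩ := h.inert cr_ok cr_m (a := ![0, 1, 0, 3, 3, 1]) (b := ![1, 0, 2, 2, 0, 2]) (by decide +kernel)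
        (by decide +kernel) (by decide +kernel) (by decide +kernel) (t := 2) (n := 3) (by decide +kernel)
        (by decide +kernel) (by decide +kernel) (m := 4) (by norm_num) ord_three hG
      exact KRow.of_inertial H (Or.inl ⟨rfl, le_rfl⟩)
  · have hs := sq_eq hab
    obtain ⟨φ, hφ⟩ := hom_six (p := 5) hF hq hK (by norm_num) hA cm_ok tm_ok
      (ev_of m1 m1' hs) (ev_of m2 m2' hs) (unit_m hs)
    exact krow_of_two (Or.inl rfl) h2 φ hφ hG

theorem char_ne {F : Type} [Field F] [Fintype F] {q k : ℕ} (hF : Fintype.card F = q ^ k) (hq : ¬ 5 ∣ q) :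
    ((5 : ℕ) : F) ≠ 0 := by
  intro h
  obtain ⟨r, hr⟩ := CharP.exists F
  obtain ⟨n, hrp, hc⟩ := FiniteField.card F r
  have h1 : r ∣ 5 := (CharP.cast_eq_zero_iff F r 5).1 h
  have h2 : r = 5 := (Nat.prime_dvd_prime_iff_eq hrp (by norm_num)).1 h1
  apply hq
  have h3 : 5 ∣ q ^ k := by
    rw [← hF, hc, h2]
    exact dvd_pow_self _ n.ne_zero
  exact (show Nat.Prime 5 by norm_num).dvd_of_dvd_pow h3

/-- **`E₆(q)`, `p = 5`, `5 ∤ q (q² - 1)`.** -/
theorem _root_.Cfsg.Agent.H193.K6.e6_five {S : Type v} [Group S] {q : ℕ} (h : IsNamed (.e6 q) S) (hq : ¬ 5 ∣ q)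
    (hd : ¬ 5 ∣ q ^ 2 - 1) : KRow.{u, v} 5 S := by
  have he := h.eq
  obtain ⟨F, i1, i2, hF, ⟨e⟩⟩ := h.real
  refine (krow_e6 (char_ne (k := 1) (by rw [hF, pow_one]) hq) hF (mod_cases hq hd) ?_).congr e.symm
  rw [← Nat.card_congr e.toEquiv]
  exact he

/-- **`²E₆(q)`, `p = 5`, `5 ∤ q (q² - 1)`.** -/
theorem _root_.Cfsg.Agent.H193.K6.te6_five {S : Type v} [Group S] {q : ℕ} (h : IsNamed (.te6 q) S) (hq : ¬ 5 ∣ q)
    (hd : ¬ 5 ∣ q ^ 2 - 1) : KRow.{u, v} 5 S := by
  have he := h.eq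
  obtain ⟨F, i1, i2, hF, ⟨e⟩⟩ := h.real
  refine (krow_te6 (char_ne hF hq) h.cond hF (mod_cases hq hd) ?_).congr e.symm
  rw [← Nat.card_congr e.toEquiv]
  exact he

end Cfsg.Agent.H193.K6.E6Five
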