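import Cfsg.Agent.H193.K6.E6Five
import Cfsg.Agent.H514.DP.OrdElt
import Cfsg.Agent.H783.ExoX2

/-!
# S4876: `E₇(q)`, `p = 5`, `5 ∣ q² + 1` (helper193)

`SL₄(q) ∘ SL₄(q)` (two orthogonal subsystems `A₃`) contains a Sylow 5-subgroup.
-/

set_option autoImplicit false
set_option linter.unusedSectionVars false
set_option maxRecDepth 100000

namespace Cfsg.Agent.H193.K6.E7Five

open Matrix Cfsg Cfsg.Lie Cfsg.Lie.ChevalleyDatum
open Cfsg.Agent.ChevalleyStructure Cfsg.Agent.ChevalleyStructure.Elts Cfsg.Agent.ChevalleyStructure.CoxeterGeom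
  Cfsg.Agent.ChevalleyStructure.SL2Rep Cfsg.Agent.ChevalleyStructure.SL2Hom
  Cfsg.Agent.ChevalleyStructure.CoxeterGeomTypes
open Cfsg.Agent.Nodes.RGDChev
open Cfsg.Agent.TitsThree.KExcBase Cfsg.Agent.TitsThree.KExcRT Cfsg.Agent.AGraded
open Cfsg.Agent.H92.ExcSL2 (OrthB xG_commute)
open Cfsg.Agent.H783.ExoX2 Cfsg.Agent.H404.K6 Cfsg.Agent.H61.K6 Cfsg.Agent.H193.K6.TwoM Cfsg.Agent.H193.K6.E6Five
  Cfsg.Agent.H436 Cfsg.Agent.OrdDiv

universe u v

local instance inst5 : Fact (Nat.Prime 5) := ⟨by norm_num⟩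

/-! ### `SL₄(q)` -/

/-- an element of order `m ∣ q² + 1` of `SL₄(q)` and an element of `SL₄(q)` which raises it to the `q`-th power -/
theorem exists_sl {F : Type u} [Field F] [Finite F] {q m : ℕ} (hq : Nat.card F = q) (hm : m ∣ q ^ 2 + 1) :
    ∃ Y H : SpecialLinearGroup (Fin 4) F, orderOf Y = m ∧ H * Y * H⁻¹ = Y ^ q := by
  classical
  obtain ⟨E, _, _, ⟨b⟩⟩ := Cfsg.Agent.H514.DP.exists_ext (F := F) (n := 4) (by norm_num)
  have : Module.Finite F E := Module.Finite.of_basis b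
  have : Finite E := Module.finite_of_finite F
  have hF : Fintype F := Fintype.ofFinite F
  have hq1 : 1 < q := by rw [← hq]; exact Finite.one_lt_card
  have hfr : Module.finrank F E = 4 := by rw [Module.finrank_eq_card_basis b, Fintype.card_fin]
  have hE : Nat.card E = q ^ 4 := by
    rw [Module.natCard_eq_pow_finrank (K := F), hfr, hq]
  obtain ⟨x, rfl⟩ : ∃ x, q = x + 1 := ⟨q - 1, by omega⟩
  have h4 : (x + 1) ^ 4 - 1 = ((x + 1) ^ 2 + 1) * ((x + 2) * x) := by
    apply Nat.sub_eq_of_eq_add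
    ring
  have hx0 : 0 < x := by omega
  -- the element
  obtain ⟨g, hg⟩ := IsCyclic.exists_generator (α := Eˣ)
  have hord : orderOf g = (x + 1) ^ 4 - 1 := by
    rw [orderOf_eq_card_of_forall_mem_zpowers hg, Nat.card_units, hE]
  have hdvd : m ∣ orderOf g := by
    rw [hord, h4]
    exact hm.mul_right _
  have hg0 : orderOf g ≠ 0 := by
    rw [hord, h4]
    positivity
  set y : Eˣ := g ^ (orderOf g / m) with hy
  have hoy : orderOf y = m := orderOf_pow_orderOf_div hg0 hdvd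
  have hoy' : orderOf (y : E) = m := by rw [orderOf_units, hoy]
  have hym : (y : E) ^ m = 1 := by rw [← hoy']; exact pow_orderOf_eq_one _
  -- the norm
  have hN : Algebra.norm F (y : E) = 1 := by
    apply (algebraMap F E).injective
    rw [FiniteField.algebraMap_norm_eq_pow, hE, hq, map_one, h4, Nat.add_sub_cancel, ← mul_assoc,
      Nat.mul_div_cancel _ hx0]
    obtain ⟨c, hc⟩ := hm
    rw [hc, mul_assoc, pow_mul, hym, one_pow]
  -- the Frobenius map
  set φ : E ≃ₐ[F] E := FiniteField.frobeniusAlgEquivOfAlgebraic F E with hφ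
  have hφa : ∀ z : E, φ z = z ^ (x + 1) := fun z => by
    rw [hφ, FiniteField.coe_frobeniusAlgEquivOfAlgebraic, Fintype.card_eq_nat_card, hq]
  set Φ : Matrix (Fin 4) (Fin 4) F := LinearMap.toMatrix b b φ.toLinearMap with hΦ
  have hΦ' : Φ * LinearMap.toMatrix b b φ.symm.toLinearMap = 1 := by
    rw [hΦ, ← LinearMap.toMatrix_comp b b b]
    have : (φ.toLinearMap ∘ₗ φ.symm.toLinearMap : E →ₗ[F] E) = LinearMap.id := by
      ext z
      exact φ.apply_symm_apply z
    rw [this, LinearMap.toMatrix_id]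
  have hdet : Φ.det ≠ 0 := by
    intro h
    have := congrArg Matrix.det hΦ'
    rw [det_mul, h, zero_mul, det_one] at this
    exact zero_ne_one this
  obtain ⟨c, hc⟩ := FiniteField.norm_surjective F E (Φ.det)⁻¹
  set L := Algebra.leftMulMatrix b with hL
  have hcomm : ∀ z : E, Φ * L z = L (z ^ (x + 1)) * Φ := by
    intro z
    rw [hΦ, hL, Algebra.leftMulMatrix_apply, Algebra.leftMulMatrix_apply, ← LinearMap.toMatrix_comp b b b,
      ← LinearMap.toMatrix_comp b b b]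
    congr 1
    ext w
    show φ (z * w) = z ^ (x + 1) * φ w
    rw [map_mul, hφa z]
  have hdY : (L (y : E)).det = 1 := by rw [hL, ← Algebra.norm_eq_matrix_det b, hN]
  have hdH : (Φ * L c).det = 1 := by
    rw [det_mul, hL, ← Algebra.norm_eq_matrix_det b, hc, mul_inv_cancel₀ hdet]
  obtain ⟨Y, hY⟩ : ∃ Y : SpecialLinearGroup (Fin 4) F, (Y : Matrix (Fin 4) (Fin 4) F) = L (y : E) := ⟨⟨_, hdY⟩, rfl⟩
  obtain ⟨H, hH⟩ : ∃ H : SpecialLinearGroup (Fin 4) F, (H : Matrix (Fin 4) (Fin 4) F) = Φ * L c := ⟨⟨_, hdH⟩, rfl⟩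
  refine ⟨Y, H, ?_, ?_⟩
  · rw [← hoy', orderOf_eq_orderOf_iff]
    intro n
    constructor
    · intro h
      have h1 : ((Y ^ n : SpecialLinearGroup (Fin 4) F) : Matrix (Fin 4) (Fin 4) F) = 1 := by rw [h]; rfl
      rw [Matrix.SpecialLinearGroup.coe_pow, hY, ← map_pow, ← map_one L] at h1
      exact Algebra.leftMulMatrix_injective b h1
    · intro h
      apply Subtype.ext
      rw [Matrix.SpecialLinearGroup.coe_pow, hY, ← map_pow, h, map_one]
      rfl
  · have h1 : H * Y = Y ^ (x + 1) * H := by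
      apply Subtype.ext
      rw [Matrix.SpecialLinearGroup.coe_mul, Matrix.SpecialLinearGroup.coe_mul, Matrix.SpecialLinearGroup.coe_pow, hY,
        hH, mul_assoc,
        ← map_mul, mul_comm c, map_mul, ← mul_assoc, hcomm, mul_assoc, map_pow]
    rw [h1, mul_inv_cancel_right]

/-! ### two commuting copies -/

section Chev

variable {D : ChevalleyDatum} {F : Type u} [Field F] [Finite F]

/-- two orthogonal `A₃` subsystems -/
theorem exists_two (hD : InList D) {r r' : Fin 4 → Fin 4 → ℕ} {s s' : Fin 4 → Fin 4 → ℤ} (ha : RTa D r)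
    (hb : RTb D r s) (hc : RTc D r) (hd : RTd s) (ha' : RTa D r') (hb' : RTb D r' s') (hc' : RTc D r') (hd' : RTd s')
    (h : ∀ i j, i ≠ j → ∀ k l, k ≠ l → OrthB D (r i j) (r' k l) = true) :
    ∃ π π' : SpecialLinearGroup (Fin 4) F →* ↥(D.group F), (∀ x y, Commute (π x) (π' y)) ∧
      (∀ x, π x = 1 → x ^ 4 = 1) ∧ (∀ x, π' x = 1 → x ^ 4 = 1) := by
  obtain ⟨π, hπ, hker⟩ := exists_sl4 (F := F) hD ha hb hc hd
  obtain ⟨π', hπ', hker'⟩ := exists_sl4 (F := F) hD ha' hb' hc' hd'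
  refine ⟨π, π', fun x y => ?_, fun x h1 => center_pow_four (hker (MonoidHom.mem_ker.2 h1)),
    fun x h1 => center_pow_four (hker' (MonoidHom.mem_ker.2 h1))⟩
  apply Subtype.ext
  show (π x : GL D.Idx F) * (π' y : GL D.Idx F) = (π' y : GL D.Idx F) * (π x : GL D.Idx F)
  refine Cfsg.Agent.LieClassical.SLGen.transvection_induction
    (fun x => (π x : GL D.Idx F) * (π' y : GL D.Idx F) = (π' y : GL D.Idx F) * (π x : GL D.Idx F)) ?_ ?_ x
  · intro i j hij c
    rw [hπ i j hij]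
    refine Cfsg.Agent.LieClassical.SLGen.transvection_induction
      (fun y => xG hD (r i j) ((s i j : F) * c) * (π' y : GL D.Idx F) =
        (π' y : GL D.Idx F) * xG hD (r i j) ((s i j : F) * c)) ?_ ?_ y
    · intro k l hkl d
      rw [hπ' k l hkl]
      exact xG_commute hD (ha i j hij) (ha' k l hkl) (h i j hij k l hkl) _ _
    · intro A B hA hB
      rw [map_mul, Subgroup.coe_mul, ← mul_assoc, hA, mul_assoc, hB, ← mul_assoc]
  · intro A B hA hB
    rw [map_mul, Subgroup.coe_mul, mul_assoc, hB, ← mul_assoc, hA, mul_assoc]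

theorem exists_two_e7 {F : Type u} [Field F] [Finite F] :
    ∃ π π' : SpecialLinearGroup (Fin 4) F →* ↥(chevE7.group F), (∀ x y, Commute (π x) (π' y)) ∧
      (∀ x, π x = 1 → x ^ 4 = 1) ∧ (∀ x, π' x = 1 → x ^ 4 = 1) :=
  exists_two (D := chevE7) (by simp) (r := r7) (s := s7) (r' := t7) (s' := u7) (by decide +kernel) (by decide +kernel)
    (by decide +kernel) (by decide +kernel) (by decide +kernel) (by decide +kernel) (by decide +kernel)
    (by decide +kernel) (by decide +kernel)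

end Chev

/-! ### the row, abstractly -/

section Abs

variable {X : Type u} [Group X]

theorem order_img {Z : Type*} [Group Z] (π : Z →* X) (hπ : ∀ x, π x = 1 → x ^ 4 = 1) {y : Z} {a : ℕ}
    (hy : orderOf y = 5 ^ a) : orderOf (π y) = 5 ^ a := by
  rw [← hy, orderOf_eq_orderOf_iff]
  intro n
  constructor
  · intro h
    rw [← map_pow] at h
    have h1 := hπ _ h
    rw [← pow_mul] at h1
    have h2 := orderOf_dvd_of_pow_eq_one h1
    rw [hy] at h2
    have h3 : Nat.Coprime (5 ^ a) 4 := Nat.Coprime.pow_left _ (by norm_num)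
    have h4 := h3.dvd_of_dvd_mul_right h2
    exact orderOf_dvd_iff_pow_eq_one.1 (hy ▸ h4)
  · intro h
    rw [← map_pow, h, map_one]

theorem gval_add {x : X} {m : ℕ} [NeZero m] (hx : x ^ m = 1) (a b : ZMod m) :
    x ^ (a + b).val = x ^ a.val * x ^ b.val := by
  rw [← pow_add, ZMod.val_add]
  conv_rhs => rw [← Nat.mod_add_div (a.val + b.val) m, pow_add, pow_mul x m, hx, one_pow, mul_one]

/-- the homomorphism of two commuting elements -/
def homTwo {x y : X} {m : ℕ} [NeZero m] (hx : x ^ m = 1) (hy : y ^ m = 1) (hxy : Commute x y) :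
    (Fin 2 → Multiplicative (ZMod m)) →* X where
  toFun v := x ^ (v 0).toAdd.val * y ^ (v 1).toAdd.val
  map_one' := by
    show x ^ (0 : ZMod m).val * y ^ (0 : ZMod m).val = 1
    rw [ZMod.val_zero, pow_zero, pow_zero, mul_one]
  map_mul' v w := by
    show x ^ ((v 0).toAdd + (w 0).toAdd).val * y ^ ((v 1).toAdd + (w 1).toAdd).val = _
    rw [gval_add hx, gval_add hy]
    have h1 : Commute (x ^ (w 0).toAdd.val) (y ^ (v 1).toAdd.val) := hxy.pow_pow _ _
    rw [mul_assoc, ← mul_assoc (x ^ (w 0).toAdd.val), h1.eq, mul_assoc, mul_assoc]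

theorem homTwo_inj {x y h : X} {a q : ℕ} (hx : orderOf x = 5 ^ a) (hy : orderOf y = 5 ^ a)
    (hx' : x ^ (5 ^ a) = 1) (hy' : y ^ (5 ^ a) = 1) (hxy : Commute x y) (hhx : Commute h x)
    (hhy : h * y * h⁻¹ = y ^ q) (hq1 : 1 ≤ q) (hq : ¬ 5 ∣ q - 1) :
    haveI : NeZero (5 ^ a) := ⟨pow_ne_zero _ (by norm_num)⟩
    Function.Injective (homTwo hx' hy' hxy) := by
  have : NeZero (5 ^ a) := ⟨pow_ne_zero _ (by norm_num)⟩
  rw [injective_iff_map_eq_one]
  intro v hv
  have h1 : x ^ (v 0).toAdd.val * y ^ (v 1).toAdd.val = 1 := hv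
  set i := (v 0).toAdd.val with hi
  set j := (v 1).toAdd.val with hj
  have h2 : x ^ i * (y ^ q) ^ j = 1 := by
    have h3 : h * (x ^ i * y ^ j) * h⁻¹ = x ^ i * (y ^ q) ^ j := by
      rw [← hhy, conj_pow, ← mul_assoc h, (hhx.pow_right i).eq]
      group
    rw [← h3, h1, mul_one, mul_inv_cancel]
  have h3 : (y ^ (q - 1)) ^ j = 1 := by
    have h4 : (y ^ q) ^ j = y ^ j := by
      rw [← h1] at h2
      exact mul_left_cancel h2
    obtain ⟨t, rfl⟩ : ∃ t, q = t + 1 := ⟨q - 1, by omega⟩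
    rw [Nat.add_sub_cancel]
    rw [pow_succ, (Commute.pow_self y t).mul_pow] at h4
    exact mul_eq_right.1 h4
  have hj0 : 5 ^ a ∣ j := by
    rw [← pow_mul] at h3
    have h4 := orderOf_dvd_of_pow_eq_one h3
    rw [hy] at h4
    have h5 : Nat.Coprime (5 ^ a) (q - 1) :=
      Nat.Coprime.pow_left _ ((Nat.Prime.coprime_iff_not_dvd (by norm_num)).2 hq)
    exact h5.dvd_of_dvd_mul_left h4
  have hj1 : j = 0 := Nat.eq_zero_of_dvd_of_lt hj0 (ZMod.val_lt _)
  have hi0 : 5 ^ a ∣ i := by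
    rw [hj1, pow_zero, mul_one] at h1
    have h4 := orderOf_dvd_of_pow_eq_one h1
    rwa [hx] at h4
  have hi1 : i = 0 := Nat.eq_zero_of_dvd_of_lt hi0 (ZMod.val_lt _)
  funext n
  fin_cases n
  · exact (ZMod.val_eq_zero _).1 hi1
  · exact (ZMod.val_eq_zero _).1 hj1

theorem krow_abs {X : Type v} [Group X] [Finite X] {x y h : X} {a q : ℕ} (ha : 1 ≤ a) (hx : orderOf x = 5 ^ a)
    (hy : orderOf y = 5 ^ a) (hxy : Commute x y) (hhx : Commute h x) (hhy : h * y * h⁻¹ = y ^ q)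
    (hm : q % 5 = 2 ∨ q % 5 = 3) (hG : ¬ 5 ^ (2 * a + 1) ∣ Nat.card X) : KRow.{u, v} 5 X := by
  have hq1 : 1 ≤ q := q_pos hm
  have hq5 : ¬ 5 ∣ q - 1 := nd_sub hq1 (by rcases hm with h | h <;> rw [h] <;> norm_num)
  have hx' : x ^ (5 ^ a) = 1 := by rw [← hx]; exact pow_orderOf_eq_one _
  have hy' : y ^ (5 ^ a) = 1 := by rw [← hy]; exact pow_orderOf_eq_one _
  rcases Nat.lt_or_ge a 2 with h2 | h2
  · have ha1 : a = 1 := by omega
    subst ha1
    rw [pow_one] at hx hy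
    have H : Inert 5 x y h q 4 := by
      refine ⟨hG, hx, hy, hxy, ?_, hhx, hhy, ?_⟩
      · rintro ⟨k, hk⟩
        have hk' : x ^ k = y := hk
        have h3 : Commute h y := by
          rw [← hk']
          exact hhx.zpow_right k
        rw [h3.eq, mul_inv_cancel_right] at hhy
        apply hq5
        rw [← hy]
        apply orderOf_dvd_of_pow_eq_one
        obtain ⟨t, rfl⟩ : ∃ t, q = t + 1 := ⟨q - 1, by omega⟩
        rw [Nat.add_sub_cancel]
        rw [pow_succ] at hhy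
        exact mul_eq_right.1 hhy.symm
      · intro i h1 h4 hcon
        have h5 : q ^ i % 5 = 1 := hcon
        rw [Nat.pow_mod] at h5
        interval_cases i <;> rcases hm with h | h <;> rw [h] at h5 <;> norm_num at h5
    exact KRow.of_inertial H (Or.inl ⟨rfl, le_rfl⟩)
  · have : NeZero (5 ^ a) := ⟨pow_ne_zero _ (by norm_num)⟩
    exact krow_of_two (Or.inl rfl) h2 (homTwo hx' hy' hxy) (homTwo_inj hx hy hx' hy' hxy hhx hhy hq1 hq5) hG

end Abs

theorem krow_e7 {F : Type} [Field F] [Fintype F] {q : ℕ} (hq : Fintype.card F = q)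
    (hm : q % 5 = 2 ∨ q % 5 = 3) (hcard : fE7.den 0 q * Nat.card ↥(chevE7.group F) = fE7.num 0 q) :
    KRow.{u, 0} 5 ↥(chevE7.group F) := by
  obtain ⟨a, b, ha, hab, hb⟩ := exists_a hm
  have hG := val_e7 hm hcard hab hb
  obtain ⟨Y, H, hY, hH⟩ := exists_sl (F := F) (q := q) (m := 5 ^ a) (by rw [Nat.card_eq_fintype_card, hq])
    (by rw [hab]; exact dvd_mul_right _ _)
  obtain ⟨π, π', hc, h1, h2⟩ := exists_two_e7 (F := F)
  exact krow_abs (x := π Y) (y := π' Y) (h := π' H) ha (order_img π h1 hY) (order_img π' h2 hY) (hc _ _)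
    (hc _ _).symm (by rw [← map_inv, ← map_mul, ← map_mul, hH, map_pow]) hm hG

/-- **`E₇(q)`, `p = 5`, `5 ∤ q (q² - 1)`.** -/
theorem _root_.Cfsg.Agent.H193.K6.e7_five {S : Type v} [Group S] {q : ℕ} (h : IsNamed (.e7 q) S) (hq : ¬ 5 ∣ q)
    (hd : ¬ 5 ∣ q ^ 2 - 1) : KRow.{u, v} 5 S := by
  have he := h.eq
  obtain ⟨F, i1, i2, hF, ⟨e⟩⟩ := h.real
  refine (krow_e7 hF (mod_cases hq hd) ?_).congr e.symm
  rw [← Nat.card_congr e.toEquiv]
  exact he

end Cfsg.Agent.H193.K6.E7Five
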