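import Cfsg.Agent.H228.K6.Inst
import Cfsg.Agent.H228.K6.Rank2

/-!
# S4876: the torus machine over `ZMod (p ^ a)`, rank two (helper193)

* `exists_torM` : the elements `X c` of order dividing `p ^ a`, `c` a functional over `ZMod (p ^ a)` with `c ∘ θ = q c`;
* `exists_hom` : two functionals with an invertible `2 × 2` minor give an embedding of `(ZMod (p ^ a))²`;
* `krow_of_two` : `KRow p G` if moreover `p ^ (2 a + 1)` does not divide `|G|`, `a ≥ 2`, `p = 5, 7`;
* `hom_untw`, `hom_six`, `hom_four` : the instances.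
-/

set_option autoImplicit false
set_option linter.unusedSectionVars false

namespace Cfsg.Agent.H193.K6.TwoM

open CoxeterSystem Cfsg Cfsg.Lie Cfsg.Lie.ChevalleyDatum
open Cfsg.Agent.ChevalleyStructure Cfsg.Agent.ChevalleyStructure.Elts Cfsg.Agent.ChevalleyStructure.CoxeterGeom
  Cfsg.Agent.ChevalleyStructure.CoxeterGeomTypes Cfsg.Agent.ChevalleyStructure.NPerm
  Cfsg.Agent.ChevalleyStructure.RootVec
open Cfsg.Agent.Tits.Roots Cfsg.Agent.Tits.Core Cfsg.Agent.Nodes Cfsg.Agent.Nodes.Reps Cfsg.Agent.Nodes.BNOf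
  Cfsg.Agent.Nodes.RGDChev Cfsg.Agent.Nodes.Bruhat Cfsg.Agent.Nodes.Coroot
open Cfsg.Agent.KFacts.RgdField Cfsg.Agent.KFacts.RgdChevCoord Cfsg.Agent.BpExc.TorCent Cfsg.Agent.BpExc.TorChev
open Cfsg.Agent.GpExc.Field Cfsg.Agent.BpExc.Tow Cfsg.Agent.BpExc.TowChev Cfsg.Agent.BpExc.Fr
  Cfsg.Agent.BpExc.LangFr Cfsg.Agent.H795.SetCent Cfsg.Agent.H795.Toral Cfsg.Agent.H795.Core
  Cfsg.Agent.H795.RootConn Cfsg.Agent.H795.SetTor Cfsg.Agent.H129.TorusChar Cfsg.Agent.H129.TorusUntw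
  Cfsg.Agent.H129.WData Cfsg.Agent.H795.Reduce Cfsg.Agent.H795.LangT Cfsg.Agent.H795.Untw Cfsg.Agent.H795.Tw
  Cfsg.Agent.BpExc Cfsg.Agent.H210.EL Cfsg.Agent.H61.K6 Cfsg.Agent.H228.K6 Cfsg.Agent.H720.TwFr

universe u v

section

variable {k : Type u} [Field k] {m : ℕ} [NeZero m]

theorem val_add {ζ : k} (hζ : ζ ^ m = 1) (a b : ZMod m) : ζ ^ (a + b).val = ζ ^ a.val * ζ ^ b.val := by
  rw [← pow_add, ZMod.val_add]
  conv_rhs => rw [← Nat.mod_add_div (a.val + b.val) m, pow_add, pow_mul ζ m, hζ, one_pow, mul_one]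

theorem val_cast {ζ : k} (hζ : ζ ^ m = 1) (n : ℕ) (a : ZMod m) : ζ ^ ((n : ZMod m) * a).val = (ζ ^ a.val) ^ n := by
  rw [← pow_mul, ZMod.val_mul, ZMod.val_natCast]
  have h1 : (n % m * a.val) % m = (a.val * n) % m := by
    rw [Nat.mod_mul_mod, mul_comm]
  rw [h1]
  conv_rhs => rw [← Nat.mod_add_div (a.val * n) m, pow_add, pow_mul ζ m, hζ, one_pow, mul_one]

theorem isMC {l : ℕ} {ζ : k} (hζ : ζ ^ m = 1) (a : Fin l → ZMod m) : IsMC (chr ζ a) where
  zero := by
    unfold chr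
    rw [lam_zero, ZMod.val_zero, pow_zero]
  add x y := by
    unfold chr
    rw [lam_add, val_add hζ]

end

theorem lam_smul {l m : ℕ} (t : ZMod m) (a : Fin l → ZMod m) (x : Fin l → ℤ) : lam (t • a) x = t * lam a x := by
  unfold lam
  rw [Finset.mul_sum]
  exact Finset.sum_congr rfl fun n _ => by rw [Pi.smul_apply, smul_eq_mul]; ring

theorem Eg.smul {l m : ℕ} {θ : (Fin l → ℤ) → (Fin l → ℤ)} {s : ZMod m} {a : Fin l → ZMod m} (t : ZMod m)
    (ha : Eg θ s a) : Eg θ s (t • a) := fun x => by rw [lam_smul, lam_smul, ha x]; ring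

section

variable {D : ChevalleyDatum} {l : ℕ} {M : CoxeterMatrix (Fin l)} {hp : IsType D l M}
  {k : Type u} [Field k] {r : ℕ} [Fact r.Prime] [CharP k r]

/-- **The machine over `ZMod (p ^ a)`.** -/
theorem exists_torM [IsAlgClosed k] (hk : LocFin k) {G : Type v} [Group G] [Finite G] {p : ℕ} [hpp : Fact p.Prime]
    {e : ℕ} {f : G →* ↥(D.group k)} {σ : MulAut ↥(D.group k)} {g : (Fin l → ℤ) ≃+ (Fin l → ℤ)}
    (h : Setup hp p r e f σ g) (hpr : p ≠ r) {d : ℕ} {B : Fin l → Fin l → ℤ} (hB : InvC D l d B) (hd : d ≠ 0)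
    (w : M.Group) (a : ℕ) :
    ∃ X : (Fin l → ZMod (p ^ a)) → G,
      (∀ c c', Eg (fun x => rep M.toCoxeterSystem hp.isCartan w (g x)) ((r ^ e : ℕ) : ZMod (p ^ a)) c →
        Eg (fun x => rep M.toCoxeterSystem hp.isCartan w (g x)) ((r ^ e : ℕ) : ZMod (p ^ a)) c' →
          X (c + c') = X c * X c') ∧
      ∀ c, Eg (fun x => rep M.toCoxeterSystem hp.isCartan w (g x)) ((r ^ e : ℕ) : ZMod (p ^ a)) c → X c = 1 → c = 0 := by
  classical
  have hp1 : p.Prime := hpp.out
  have hm0 : NeZero (p ^ a) := ⟨pow_ne_zero _ hp1.ne_zero⟩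
  -- the root of unity
  have hpk : ((p ^ a : ℕ) : k) ≠ 0 := by
    intro h
    rw [Nat.cast_pow] at h
    have h0 : (p : k) = 0 := by
      by_contra hne
      exact pow_ne_zero a hne h
    have h1 := (CharP.cast_eq_zero_iff k r p).1 h0
    exact hpr.symm ((Nat.prime_dvd_prime_iff_eq Fact.out hp1).1 h1)
  have : NeZero ((p ^ a : ℕ) : k) := ⟨hpk⟩
  obtain ⟨ζ, hζ⟩ := HasEnoughRootsOfUnity.exists_primitiveRoot k (p ^ a)
  have hζp : ζ ^ (p ^ a) = 1 := hζ.pow_eq_one
  have hζinj : ∀ c : ZMod (p ^ a), ζ ^ c.val = 1 → c = 0 := by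
    intro c h
    have h1 := (hζ.pow_eq_one_iff_dvd _).1 h
    have h2 : c.val < p ^ a := ZMod.val_lt c
    have h3 : c.val = 0 := Nat.eq_zero_of_dvd_of_lt h1 h2
    exact (ZMod.val_eq_zero c).1 h3
  -- the torus elements
  have hT : ∀ c : Fin l → ZMod (p ^ a), ∃ t ∈ TT D k, ∀ x, cX hp t x = chr ζ c x := fun c =>
    exists_cX hp (k := k) hB hd (isMC hζp c) (fun i => IsAlgClosed.exists_pow_nat_eq _ (Nat.pos_of_ne_zero hd))
  choose t ht hX using hT
  have H := tow hp M.toCoxeterSystem hk r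
  obtain ⟨nw, hnw⟩ := exists_rp M.toCoxeterSystem H.nsys w
  obtain ⟨u, hu⟩ := lang_all hp M.toCoxeterSystem h.e_pos h.frob h.fr 1 nw
  have hu' : nw = u⁻¹ * σ u := by
    rw [map_one, one_mul] at hu
    exact hu
  have Fr1 : Fr M.toCoxeterSystem hp.isCartan (TT D k) (XX D l k) (ct σ u)
      (g.trans (repAut M.toCoxeterSystem hp.isCartan w)) := by
    have h1 := Fr.conj H (by rw [hu'] at hnw; exact hnw : Rp M.toCoxeterSystem H.nsys w (u⁻¹ * σ u))
    rw [TL_eq hp hk, XL_eq hp hk] at h1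
    exact h1.mul h.fr
  have hσ1 : IsFrob r e (ct σ u) := h.frob.conj_mul _
  have hg1 : ∀ x, (g.trans (repAut M.toCoxeterSystem hp.isCartan w)) x =
      rep M.toCoxeterSystem hp.isCartan w (g x) := fun x => rfl
  set θ : (Fin l → ℤ) → (Fin l → ℤ) := fun x => rep M.toCoxeterSystem hp.isCartan w (g x) with hθ
  -- fixed
  have hfixt : ∀ c : Fin l → ZMod (p ^ a), Eg θ ((r ^ e : ℕ) : ZMod (p ^ a)) c → ct σ u (t c) = t c := by
    intro c hc
    refine cX_inj hp ((Fr1.tor (t c)).2 (ht c)) (ht c) fun i => ?_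
    obtain ⟨y, hy⟩ := (g.trans (repAut M.toCoxeterSystem hp.isCartan w)).surjective (sr i)
    rw [← hy, cX_sigma hp M.toCoxeterSystem hσ1 Fr1 (ht c), hX, hX, hg1]
    unfold chr
    rw [hc y, val_cast hζp]
  have htp : ∀ c, t c ^ (p ^ a) = 1 := by
    intro c
    refine cX_inj hp (pow_mem (ht c) (p ^ a)) (one_mem _) fun i => ?_
    rw [cX_pow hp (ht c), cX_one, hX]
    unfold chr
    rw [← pow_mul, mul_comm, pow_mul, hζp, one_pow]
  -- back in the finite group
  have hback : ∀ c : Fin l → ZMod (p ^ a), ∃ x : G, Eg θ ((r ^ e : ℕ) : ZMod (p ^ a)) c → f x = u * t c * u⁻¹ := by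
    intro c
    by_cases hc : Eg θ ((r ^ e : ℕ) : ZMod (p ^ a)) c
    · obtain ⟨x, hx⟩ := h.p_mem (u * t c * u⁻¹) (ct_fix.1 (hfixt c hc)) ⟨a, by
        rw [conj_pow, htp, mul_one, mul_inv_cancel]⟩
      exact ⟨x, fun _ => hx⟩
    · exact ⟨1, fun hc' => absurd hc' hc⟩
  choose X hXf using hback
  refine ⟨X, ?_, ?_⟩
  · intro c c' hc hc'
    apply h.inj
    rw [map_mul, hXf c hc, hXf c' hc', hXf _ (hc.add hc')]
    have h1 : t (c + c') = t c * t c' := by
      refine cX_inj hp (ht _) (mul_mem (ht c) (ht c')) fun i => ?_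
      rw [cX_mul hp (ht c) (ht c'), hX, hX, hX]
      unfold chr
      rw [lam_add', val_add hζp]
    rw [h1]
    group
  · intro c hc h1
    have h2 : t c = 1 := by
      have h3 := hXf c hc
      rw [h1, map_one] at h3
      have h4 : t c = u⁻¹ * (u * t c * u⁻¹) * u := by group
      rw [h4, ← h3]
      group
    funext i
    apply hζinj
    have h3 := hX c (sr i)
    rw [h2, cX_one] at h3
    unfold chr at h3
    rw [lam_sr] at h3
    exact h3.symm

/-- the abstract part -/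
theorem hom_of {G : Type v} [Group G] {m : ℕ} {E : (Fin l → ZMod m) → Prop}
    (hadd : ∀ c c', E c → E c' → E (c + c')) (hsm : ∀ (t : ZMod m) c, E c → E (t • c))
    {X : (Fin l → ZMod m) → G} (h1 : ∀ c c', E c → E c' → X (c + c') = X c * X c') (h2 : ∀ c, E c → X c = 1 → c = 0)
    {c1 c2 : Fin l → ZMod m} (e1 : E c1) (e2 : E c2) {i j : Fin l} (hu : IsUnit (c1 i * c2 j - c1 j * c2 i)) :
    ∃ φ : (Fin 2 → Multiplicative (ZMod m)) →* G, Function.Injective φ := by
  have hE : ∀ a b : ZMod m, E (a • c1 + b • c2) := fun a b => hadd _ _ (hsm _ _ e1) (hsm _ _ e2)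
  let φ : (Fin 2 → Multiplicative (ZMod m)) →* G :=
    { toFun := fun x => X ((Multiplicative.toAdd (x 0)) • c1 + (Multiplicative.toAdd (x 1)) • c2)
      map_one' := by
        have h3 : X (0 + 0) = X 0 * X 0 := by
          have h4 : E 0 := by
            have := hsm 0 c1 e1
            rwa [zero_smul] at this
          exact h1 0 0 h4 h4
        rw [add_zero] at h3
        have h5 : X 0 = 1 := (mul_eq_left.1 h3.symm)
        show X ((Multiplicative.toAdd ((1 : Fin 2 → Multiplicative (ZMod m)) 0)) • c1 +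
          (Multiplicative.toAdd ((1 : Fin 2 → Multiplicative (ZMod m)) 1)) • c2) = 1
        rw [Pi.one_apply, Pi.one_apply, toAdd_one, zero_smul, zero_smul, add_zero, h5]
      map_mul' := by
        intro x y
        show X ((Multiplicative.toAdd ((x * y) 0)) • c1 + (Multiplicative.toAdd ((x * y) 1)) • c2) =
          X ((Multiplicative.toAdd (x 0)) • c1 + (Multiplicative.toAdd (x 1)) • c2) *
          X ((Multiplicative.toAdd (y 0)) • c1 + (Multiplicative.toAdd (y 1)) • c2)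
        rw [← h1 _ _ (hE _ _) (hE _ _), Pi.mul_apply, Pi.mul_apply, toAdd_mul, toAdd_mul]
        congr 1
        rw [add_smul, add_smul]
        abel }
  refine ⟨φ, ?_⟩
  rw [injective_iff_map_eq_one]
  intro x hx
  have h3 : (Multiplicative.toAdd (x 0)) • c1 + (Multiplicative.toAdd (x 1)) • c2 = 0 := h2 _ (hE _ _) hx
  have h4 : ∀ n, Multiplicative.toAdd (x 0) * c1 n + Multiplicative.toAdd (x 1) * c2 n = 0 := by
    intro n
    exact congrFun h3 n
  have h5 : Multiplicative.toAdd (x 0) * (c1 i * c2 j - c1 j * c2 i) = 0 := by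
    linear_combination c2 j * h4 i - c2 i * h4 j
  have h6 : Multiplicative.toAdd (x 1) * (c1 i * c2 j - c1 j * c2 i) = 0 := by
    linear_combination c1 i * h4 j - c1 j * h4 i
  have h7 := (hu.mul_left_eq_zero).1 h5
  have h8 := (hu.mul_left_eq_zero).1 h6
  funext n
  fin_cases n
  · exact Multiplicative.toAdd.injective h7
  · exact Multiplicative.toAdd.injective h8

/-- **Two functionals.** `Th j = w (g (sr j))`. -/
theorem exists_hom [IsAlgClosed k] (hk : LocFin k) {G : Type v} [Group G] [Finite G] {p : ℕ} [hpp : Fact p.Prime]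
    {e : ℕ} {f : G →* ↥(D.group k)} {σ : MulAut ↥(D.group k)} {g : (Fin l → ℤ) ≃+ (Fin l → ℤ)}
    (h : Setup hp p r e f σ g) (hpr : p ≠ r) {d : ℕ} {B : Fin l → Fin l → ℤ} (hB : InvC D l d B) (hd0 : d ≠ 0)
    {A : Mat l} (hA : ∀ i j, A i j = cartanOf D l i j) {Cw : List (Fin l × Mat l)} (hw : ChainOK A Cw)
    {Th : Mat l} (hTh : ∀ j m, ∑ n, (g (sr j : Fin l → ℤ)) n * hd Cw n m = Th j m) {a : ℕ}
    {c1 c2 : Fin l → ZMod (p ^ a)} (e1 : EV Th ((r ^ e : ℕ) : ZMod (p ^ a)) c1)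
    (e2 : EV Th ((r ^ e : ℕ) : ZMod (p ^ a)) c2) {i j : Fin l} (hu : IsUnit (c1 i * c2 j - c1 j * c2 i)) :
    ∃ φ : (Fin 2 → Multiplicative (ZMod (p ^ a))) →* G, Function.Injective φ := by
  classical
  set w : M.Group := M.toCoxeterSystem.wordProd (Cw.map Prod.fst) with hwdef
  have hwr := chain_rep hp M.toCoxeterSystem hA hw
  rw [← hwdef] at hwr
  obtain ⟨X, hX1, hX2⟩ := exists_torM hk h hpr hB hd0 w a
  let θ : (Fin l → ℤ) →+ (Fin l → ℤ) := (rep M.toCoxeterSystem hp.isCartan w).toAddMonoidHom.comp g.toAddMonoidHom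
  have hθ : ∀ j, θ (sr j) = Th j := by
    intro j
    funext m
    show rep M.toCoxeterSystem hp.isCartan w (g (sr j)) m = Th j m
    rw [H795.TorsData.rep_of_sr hp M.toCoxeterSystem hwr, hTh]
  exact hom_of (fun c c' hc hc' => hc.add hc') (fun t c hc => Eg.smul t hc) hX1 hX2 (eg_of hθ e1) (eg_of hθ e2) hu

/-- **The row**: `(ZMod (p ^ a))² ≤ G`, `p ^ (2 a + 1) ∤ |G|`, `a ≥ 2`. -/
theorem krow_of_two {p : ℕ} (hp57 : p = 5 ∨ p = 7) {G : Type v} [Group G] [Finite G] {a : ℕ} (ha : 2 ≤ a)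
    (φ : (Fin 2 → Multiplicative (ZMod (p ^ a))) →* G) (hφ : Function.Injective φ)
    (hG : ¬ p ^ (2 * a + 1) ∣ Nat.card G) : KRow.{u, v} p G := by
  classical
  have hpp : p.Prime := by rcases hp57 with rfl | rfl <;> norm_num
  have hpF : Fact p.Prime := ⟨hpp⟩
  have hm0 : NeZero (p ^ a) := ⟨pow_ne_zero _ hpp.ne_zero⟩
  have hcard : Nat.card ↥φ.range = p ^ (2 * a) := by
    rw [← Nat.card_congr (MonoidHom.ofInjective hφ).toEquiv]
    rw [Nat.card_fun, Nat.card_eq_fintype_card (α := Fin 2), Fintype.card_fin]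
    have : Nat.card (Multiplicative (ZMod (p ^ a))) = p ^ a := by
      rw [Nat.card_congr Multiplicative.toAdd, Nat.card_zmod]
    rw [this, ← pow_mul, mul_comm]
  have hpg : IsPGroup p ↥φ.range := IsPGroup.of_card hcard
  obtain ⟨S, hS⟩ := hpg.exists_le_sylow
  have hSr : (S : Subgroup G) = φ.range := by
    symm
    apply Subgroup.eq_of_le_of_card_ge hS
    obtain ⟨n, hn⟩ := IsPGroup.iff_card.1 S.2
    have h1 : n < 2 * a + 1 := by
      by_contra hcon
      push Not at hcon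
      apply hG
      refine dvd_trans (pow_dvd_pow p hcon) ?_
      rw [← hn]
      exact Subgroup.card_subgroup_dvd_card _
    rw [hn, hcard]
    exact Nat.pow_le_pow_right hpp.pos (by omega)
  have hconj : ∀ P : Sylow p G, ∃ y : G, ∀ x ∈ (P : Subgroup G), ∃ z, φ z = y * x * y⁻¹ := by
    intro P
    obtain ⟨y, hy⟩ := MulAction.exists_smul_eq G P S
    refine ⟨y, fun x hx => ?_⟩
    have h1 : y * x * y⁻¹ ∈ (S : Subgroup G) := by
      rw [← hy]
      exact Subgroup.smul_mem_pointwise_smul x (MulAut.conj y) _ hx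
    rw [hSr] at h1
    exact h1
  refine KRow.of_rank_two hp57 ?_ ?_ ?_
  · intro P
    obtain ⟨y, hy⟩ := hconj P
    refine ⟨⟨fun x x' => Subtype.ext ?_⟩⟩
    show (x : G) * x' = x' * x
    obtain ⟨z, hz⟩ := hy x x.2
    obtain ⟨z', hz'⟩ := hy x' x'.2
    have h1 : (y * x * y⁻¹) * (y * x' * y⁻¹) = (y * x' * y⁻¹) * (y * x * y⁻¹) := by
      rw [← hz, ← hz', ← map_mul, ← map_mul, mul_comm]
    have h2 : y * (x * x') * y⁻¹ = y * (x' * x) * y⁻¹ := by
      calc y * ((x : G) * x') * y⁻¹ = (y * x * y⁻¹) * (y * x' * y⁻¹) := by group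
        _ = (y * x' * y⁻¹) * (y * x * y⁻¹) := h1
        _ = _ := by group
    exact mul_left_cancel (mul_right_cancel h2)
  · intro E hE _
    have hEp : IsPGroup p E := fun x => ⟨1, Subtype.ext (by
      rw [pow_one]
      exact hE x x.2)⟩
    obtain ⟨P, hP⟩ := hEp.exists_le_sylow
    obtain ⟨y, hy⟩ := hconj P
    have h1 : ∀ x : E, ∃ z, φ z = y * x * y⁻¹ := fun x => hy x (hP x.2)
    choose F hF using h1
    have h2 := H795.card_torsion p a 2 (by omega)
    rw [← h2]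
    have hfin : Finite {x : Fin 2 → Multiplicative (ZMod (p ^ a)) // x ^ p = 1} := by
      have : Finite (Multiplicative (ZMod (p ^ a))) := Finite.of_equiv _ Multiplicative.ofAdd
      infer_instance
    refine Nat.card_le_card_of_injective (fun x : E => (⟨F x, ?_⟩ :
      {x : Fin 2 → Multiplicative (ZMod (p ^ a)) // x ^ p = 1})) ?_
    · apply hφ
      rw [map_pow, hF, map_one, conj_pow, hE x x.2, mul_one, mul_inv_cancel]
    · intro x x' hxx
      have h3 : F x = F x' := congrArg Subtype.val hxx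
      have h4 : y * (x : G) * y⁻¹ = y * x' * y⁻¹ := by rw [← hF, ← hF, h3]
      exact Subtype.ext (mul_left_cancel (mul_right_cancel h4))
  · have h1 : Nat.card ↥φ.range ∣ Nat.card G := Subgroup.card_subgroup_dvd_card _
    rw [hcard] at h1
    exact (pow_dvd_pow p (by omega)).trans h1

end

/-! ### the instances -/

section

variable {D : ChevalleyDatum} {l : ℕ} {M : CoxeterMatrix (Fin l)} (hp : IsType D l M)

include hp in
/-- **The untwisted groups.** -/
theorem hom_untw {F : Type u} [Field F] [Fintype F] {p : ℕ} [hpp : Fact p.Prime] (hpF : (p : F) ≠ 0)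
    {q : ℕ} (hF : Fintype.card F = q)
    {d : ℕ} {B : Fin l → Fin l → ℤ} (hB : InvC D l d B) (hd0 : d ≠ 0) (hd1 : d = 1 ∨ d.Prime) (hpd : ¬ p ∣ d)
    {A : Mat l} (hA : ∀ i j, A i j = cartanOf D l i j) {Cw : List (Fin l × Mat l)} (hw : ChainOK A Cw) {a : ℕ}
    {c1 c2 : Fin l → ZMod (p ^ a)} (e1 : EV (hd Cw) (q : ZMod (p ^ a)) c1)
    (e2 : EV (hd Cw) (q : ZMod (p ^ a)) c2) {i j : Fin l} (hu : IsUnit (c1 i * c2 j - c1 j * c2 i)) :
    ∃ φ : (Fin 2 → Multiplicative (ZMod (p ^ a))) →* ↥(D.group F), Function.Injective φ := by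
  obtain ⟨r, e, hr, hrF, hrk, he, hq, hk⟩ := exists_closure (F := F) rfl
  have hpr : p ≠ r := by
    rintro rfl
    exact hpF (CharP.cast_eq_zero F p)
  have hset := setup_untw hp hk (algebraMap F (AlgebraicClosure F)) he hq hB hd0 hd1 (p := p) hpd
  have hGf : Finite ↥(D.group F) := inferInstance
  have hqq : ((r ^ e : ℕ) : ZMod (p ^ a)) = (q : ZMod (p ^ a)) := by rw [← hq, hF]
  refine exists_hom hk hset hpr hB hd0 hA hw (Th := hd Cw) (fun j m => by
      rw [Finset.sum_eq_single j]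
      · show (sr j : Fin l → ℤ) j * hd Cw j m = hd Cw j m
        rw [sr_self, one_mul]
      · intro n _ hn
        show (sr j : Fin l → ℤ) n * hd Cw n m = 0
        rw [sr_ne hn, zero_mul]
      · intro hj
        exact absurd (Finset.mem_univ j) hj) (c1 := c1) (c2 := c2) ?_ ?_ hu
  · rw [hqq]; exact e1
  · rw [hqq]; exact e2

end

/-- **`²E₆(q)`.** -/
theorem hom_six {K : Type u} [Field K] [Fintype K] {p q : ℕ} [hpp : Fact p.Prime] (hpK : (p : K) ≠ 0)
    (hq : IsPrimePow q) (hK : Fintype.card K = q ^ 2) (hp3 : p ≠ 3)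
    {A : Mat 6} (hA : ∀ i j, A i j = cartanOf chevE6 6 i j) {Cw : List (Fin 6 × Mat 6)} (hw : ChainOK A Cw)
    {Th : Mat 6} (hTh : ∀ j, Th j = hd Cw (rho6 j)) {a : ℕ}
    {c1 c2 : Fin 6 → ZMod (p ^ a)} (e1 : EV Th (q : ZMod (p ^ a)) c1)
    (e2 : EV Th (q : ZMod (p ^ a)) c2) {i j : Fin 6} (hu : IsUnit (c1 i * c2 j - c1 j * c2 i)) :
    ∃ φ : (Fin 2 → Multiplicative (ZMod (p ^ a))) →* ↥(twistedE6 K q), Function.Injective φ := by
  obtain ⟨r, n, hr, hrF, hrk, hn0, hn, hk⟩ := exists_closure_q two_ne_zero hq hK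
  have hpr : p ≠ r := by
    rintro rfl
    exact hpK (CharP.cast_eq_zero K p)
  have hqq : ((r ^ n : ℕ) : ZMod (p ^ a)) = (q : ZMod (p ^ a)) := by rw [← hn]
  refine exists_hom hk (setup_six (algebraMap K (AlgebraicClosure K)) r hk hn0 hn hK hp3) hpr invC_E6
    three_ne_zero hA hw (Th := Th) (fun j m => by
      have e1 : ∀ n, (permE rho6 (sr j)) n = if n = rho6 j then 1 else 0 := by
        intro n
        show (sr j : Fin 6 → ℤ) (rho6.symm n) = _
        by_cases hn' : n = rho6 j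
        · rw [if_pos hn', hn', Equiv.symm_apply_apply, sr_self]
        · rw [if_neg hn', sr_ne]
          intro h2
          exact hn' (by rw [← h2, Equiv.apply_symm_apply])
      simp only [e1, ite_mul, one_mul, zero_mul, Finset.sum_ite_eq', Finset.mem_univ, if_true]
      rw [hTh]) (c1 := c1) (c2 := c2) ?_ ?_ hu
  · rw [hqq]; exact e1
  · rw [hqq]; exact e2

/-- **`³D₄(q)`.** -/
theorem hom_four {K : Type u} [Field K] [Fintype K] {p q : ℕ} [hpp : Fact p.Prime] (hpK : (p : K) ≠ 0)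
    (hq : IsPrimePow q) (hK : Fintype.card K = q ^ 3)
    {A : Mat 4} (hA : ∀ i j, A i j = cartanOf chevD4 4 i j) {Cw : List (Fin 4 × Mat 4)} (hw : ChainOK A Cw)
    {Th : Mat 4} (hTh : ∀ j, Th j = hd Cw (rho4 j)) {a : ℕ}
    {c1 c2 : Fin 4 → ZMod (p ^ a)} (e1 : EV Th (q : ZMod (p ^ a)) c1)
    (e2 : EV Th (q : ZMod (p ^ a)) c2) {i j : Fin 4} (hu : IsUnit (c1 i * c2 j - c1 j * c2 i)) :
    ∃ φ : (Fin 2 → Multiplicative (ZMod (p ^ a))) →* ↥(twistedD4 K q), Function.Injective φ := by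
  obtain ⟨r, n, hr, hrF, hrk, hn0, hn, hk⟩ := exists_closure_q three_ne_zero hq hK
  have hpr : p ≠ r := by
    rintro rfl
    exact hpK (CharP.cast_eq_zero K p)
  have hqq : ((r ^ n : ℕ) : ZMod (p ^ a)) = (q : ZMod (p ^ a)) := by rw [← hn]
  refine exists_hom hk (setup_four (algebraMap K (AlgebraicClosure K)) r (tw4_le hq hK) hk hn0 hn hK) hpr invC_D4
    two_ne_zero hA hw (Th := Th) (fun j m => by
      have e1 : ∀ n, (permE rho4 (sr j)) n = if n = rho4 j then 1 else 0 := by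
        intro n
        show (sr j : Fin 4 → ℤ) (rho4.symm n) = _
        by_cases hn' : n = rho4 j
        · rw [if_pos hn', hn', Equiv.symm_apply_apply, sr_self]
        · rw [if_neg hn', sr_ne]
          intro h2
          exact hn' (by rw [← h2, Equiv.apply_symm_apply])
      simp only [e1, ite_mul, one_mul, zero_mul, Finset.sum_ite_eq', Finset.mem_univ, if_true]
      rw [hTh]) (c1 := c1) (c2 := c2) ?_ ?_ hu
  · rw [hqq]; exact e1
  · rw [hqq]; exact e2

end Cfsg.Agent.H193.K6.TwoM
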